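import Cfsg.Agent.Eq.Def_Solvable
import Cfsg.Agent.Chars.Apps.FrobeniusKernel
import Cfsg.Agent.Chars.Basic.Kernel
import Mathlib

/-!
# Normal complements from TI-sets

* `exists_irr_extension_of_tiSet`: an irreducible character of `L` which is constant off a TI-set `A`
  with normalizer inside `L` extends to an irreducible character of `G`.
* `exists_normal_complement_of_tiSet`: if `A` is the set of elements of `L` outside a normal subgroup
  `K` of `L`, it yields a normal subgroup `M` of `G` meeting `L` inside `K`, with at least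
  `|G : L| |K|` elements.
-/

set_option autoImplicit false

namespace CfsgLib.TISetComplement

open scoped ComplexConjugate Pointwise
open CfsgLib.Chars CfsgLib.Chars.Apps

universe u

variable {G : Type u} [Group G] [Finite G]

/-- An irreducible character constant off a TI-set extends to an irreducible character. -/
theorem exists_irr_extension_of_tiSet (H : Subgroup G) (A : Set G)
    (hTI : ∀ x : G, ∀ a ∈ A, x⁻¹ * a * x ∈ A → x ∈ H)
    (hcl : ∀ l : H, ∀ x : G, x⁻¹ * (l : G) * x ∈ A → (l : G) ∈ A)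
    (θ : Cfsg.IrrCharacter H) (hθ : ∀ l : H, (l : G) ∉ A → (θ : H → ℂ) l = (θ : H → ℂ) 1) :
    ∃ χ : Cfsg.IrrCharacter G, (∀ h : H, (χ : G → ℂ) h = (θ : H → ℂ) h) ∧
      ∀ g : G, (∀ x : G, x⁻¹ * g * x ∉ A) → (χ : G → ℂ) g = (χ : G → ℂ) 1 := by
  classical
  haveI := Fintype.ofFinite G
  haveI := Fintype.ofFinite H
  set d : ℕ := Cfsg.charDegree (θ : H → ℂ) with hd
  have hd1 : (θ : H → ℂ) 1 = (d : ℂ) := (coe_charDegree θ).symm
  let φ : H → ℂ := fun h => (θ : H → ℂ) h - d
  have hφcl : Cfsg.IsClassFunction H φ := fun a b => by simp only [φ, isClassFunction_coe θ a b]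
  have hφA : ∀ l : H, (l : G) ∉ A → φ l = 0 := fun l hl => by simp [φ, hθ l hl, hd1]
  let f : G → ℂ := fun g => Cfsg.indFun H φ g + d
  have hfcl : Cfsg.IsClassFunction G f := fun a b => by
    simp only [f, indFun_isClassFunction H φ a b]
  have hfH : ∀ h : H, f h = (θ : H → ℂ) h := by
    intro h
    by_cases h1 : (h : G) ∈ A
    · simp only [f]
      rw [indFun_eq_of_ti H A φ hφcl hφA hTI h h1]
      simp [φ]
    · simp only [f]
      rw [indFun_eq_zero_of_ti H A φ hφA _ (fun x hx => h1 (hcl h x hx)), zero_add, hθ h h1, hd1]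
  have hfout : ∀ g : G, (∀ x : G, x⁻¹ * g * x ∉ A) → f g = d := by
    intro g hg
    simp only [f]
    rw [indFun_eq_zero_of_ti H A φ hφA g hg, zero_add]
  -- inner products of `f` with class functions
  have hinner : ∀ u : G → ℂ, Cfsg.IsClassFunction G u →
      Cfsg.classInner f u = Cfsg.classInner (θ : H → ℂ) (fun h : H => u h) -
        (d : ℂ) * Cfsg.classInner (fun _ : H => (1 : ℂ)) (fun h : H => u h) +
        (d : ℂ) * Cfsg.classInner (fun _ : G => (1 : ℂ)) u := by
    intro u hu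
    have e1 : f = Cfsg.indFun H φ + (d : ℂ) • (fun _ : G => (1 : ℂ)) := by
      funext g; simp [f]
    have e2 : φ = (θ : H → ℂ) - (d : ℂ) • (fun _ : H => (1 : ℂ)) := by
      funext h; simp [φ]
    rw [e1, classInner_add_left, classInner_indFun_left H φ u hu, classInner_smul_left, e2,
      classInner_sub_left, classInner_smul_left]
  -- `f` has norm one
  have hone : Cfsg.classInner f f = 1 := by
    have h1 : (fun h : H => f h) = (θ : H → ℂ) := funext hfH
    rw [hinner f hfcl, h1, classInner_self]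
    have h2 := hinner (fun _ => 1) (fun _ _ => rfl)
    have h3 : Cfsg.classInner (fun _ : G => (1 : ℂ)) (fun _ : G => (1 : ℂ)) = 1 :=
      classInner_self ⟨_, isIrrCharacter_one⟩
    have h4 : Cfsg.classInner (fun _ : H => (1 : ℂ)) (fun _ : H => (1 : ℂ)) = 1 :=
      classInner_self ⟨_, isIrrCharacter_one⟩
    rw [h3, h4, mul_one, sub_add_cancel] at h2
    have h5 : Cfsg.classInner (fun _ : G => (1 : ℂ)) f =
        Cfsg.classInner (fun _ : H => (1 : ℂ)) (θ : H → ℂ) := by
      rw [← classInner_conj_symm, h2, classInner_conj_symm]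
    rw [h5, sub_add_cancel]
  -- integrality of the coefficients
  have hint : ∀ χ : Cfsg.IrrCharacter G, ∃ m : ℤ, Cfsg.classInner f (χ : G → ℂ) = m := by
    intro χ
    have hres := isCharacter_restrict (isCharacter_coe χ) H
    obtain ⟨a, ha⟩ := exists_nat_classInner' (isCharacter_coe θ) hres
    obtain ⟨b, hb⟩ := exists_nat_classInner' (isCharacter_one (G := H)) hres
    obtain ⟨c, hc⟩ := exists_nat_classInner' (isCharacter_one (G := G)) (isCharacter_coe χ)
    refine ⟨a - d * b + d * c, ?_⟩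
    rw [hinner _ (isClassFunction_coe χ)]
    have hb' : Cfsg.classInner (fun _ : H => (1 : ℂ)) (fun h : H => (χ : G → ℂ) h) = b := hb
    have hc' : Cfsg.classInner (fun _ : G => (1 : ℂ)) (χ : G → ℂ) = c := hc
    rw [ha, hb', hc']
    push_cast
    ring
  choose m hm using hint
  have hsum : ∑ χ : Cfsg.IrrCharacter G, m χ ^ 2 = 1 := by
    have h := classInner_eq_sum hfcl f
    simp only [hm, map_intCast] at h
    rw [hone] at h
    have : ((∑ χ : Cfsg.IrrCharacter G, m χ ^ 2 : ℤ) : ℂ) = ((1 : ℤ) : ℂ) := by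
      push_cast
      rw [h]
      exact Finset.sum_congr rfl fun χ _ => by ring
    exact_mod_cast this
  obtain ⟨χ, hχ⟩ : ∃ χ, m χ ≠ 0 := by
    by_contra h
    push Not at h
    simp [h] at hsum
  have hsq : m χ ^ 2 = 1 ∧ ∀ ψ, ψ ≠ χ → m ψ = 0 := by
    have hle := Finset.single_le_sum (f := fun ψ => m ψ ^ 2) (fun ψ _ => sq_nonneg _)
      (Finset.mem_univ χ)
    rw [hsum] at hle
    have hpos : 0 < m χ ^ 2 := by positivity
    have heq : m χ ^ 2 = 1 := by omega
    refine ⟨heq, fun ψ hψ => ?_⟩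
    rw [← Finset.add_sum_erase _ _ (Finset.mem_univ χ), heq] at hsum
    have hzero : ∑ ψ ∈ Finset.univ.erase χ, m ψ ^ 2 = 0 := by omega
    have := (Finset.sum_eq_zero_iff_of_nonneg fun ψ _ => sq_nonneg (m ψ)).mp hzero ψ
      (Finset.mem_erase.mpr ⟨hψ, Finset.mem_univ _⟩)
    simpa using this
  have hf : ∀ g, f g = (m χ : ℂ) * (χ : G → ℂ) g := by
    intro g
    rw [eq_sum_classInner_mul hfcl g, Finset.sum_eq_single χ, hm]
    · intro ψ _ hψ
      rw [hm, hsq.2 ψ hψ, Int.cast_zero, zero_mul]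
    · exact fun h => absurd (Finset.mem_univ χ) h
  have hm1 : m χ = 1 := by
    rcases sq_eq_one_iff.mp hsq.1 with h | h
    · exact h
    · exfalso
      have h0 := hf 1
      rw [h, ← OneMemClass.coe_one H, hfH, OneMemClass.coe_one, hd1, ← coe_charDegree χ] at h0
      push_cast at h0
      have h1 : ((d + Cfsg.charDegree (χ : G → ℂ) : ℕ) : ℂ) = 0 := by push_cast; linear_combination h0
      have h2 : 0 < d := charDegree_pos θ
      have : d + Cfsg.charDegree (χ : G → ℂ) = 0 := by exact_mod_cast h1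
      omega
  have hχf : ∀ g, (χ : G → ℂ) g = f g := fun g => by rw [hf g, hm1, Int.cast_one, one_mul]
  refine ⟨χ, fun h => by rw [hχf, hfH], fun g hg => ?_⟩
  rw [hχf, hχf, hfout g hg, ← OneMemClass.coe_one H, hfH, hd1]

/-- A TI-set `L \\ K` yields a large normal subgroup meeting `L` inside `K`. -/
theorem exists_normal_of_tiSet (L : Subgroup G) (K : Subgroup L) [K.Normal]
    (hTI : ∀ x : G, ∀ a : L, a ∉ K → ∀ b : L, b ∉ K → x⁻¹ * (a : G) * x = b → x ∈ L) :
    (∀ (l : L) (x : G) (b : L), b ∉ K → x⁻¹ * (l : G) * x = b → l ∉ K) →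
    ∃ M : Subgroup G, M.Normal ∧ (∀ l : L, (l : G) ∈ M → l ∈ K) ∧ L.index * Nat.card K ≤ Nat.card M := by
  classical
  intro hcl
  let A : Set G := {g | ∃ a : L, a ∉ K ∧ (a : G) = g}
  have hA : ∀ l : L, (l : G) ∈ A ↔ l ∉ K := fun l =>
    ⟨fun ⟨a, ha, e⟩ => Subtype.ext e ▸ ha, fun h => ⟨l, h, rfl⟩⟩
  have hTI' : ∀ x : G, ∀ a ∈ A, x⁻¹ * a * x ∈ A → x ∈ L := by
    rintro x _ ⟨a, ha, rfl⟩ ⟨b, hb, e⟩
    exact hTI x a ha b hb e.symm
  have hcl' : ∀ l : L, ∀ x : G, x⁻¹ * (l : G) * x ∈ A → (l : G) ∈ A := by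
    rintro l x ⟨b, hb, e⟩
    exact (hA l).2 (hcl l x b hb e.symm)
  have hθ : ∀ θ : Cfsg.IrrCharacter (L ⧸ K), ∀ l : L, (l : G) ∉ A →
      (inflate K θ : L → ℂ) l = (inflate K θ : L → ℂ) 1 := by
    intro θ l hl
    rw [hA, not_not] at hl
    rw [inflate_apply, inflate_apply, (QuotientGroup.eq_one_iff l).2 hl, QuotientGroup.mk_one]
  choose ext hres hout using fun θ : Cfsg.IrrCharacter (L ⧸ K) =>
    exists_irr_extension_of_tiSet L A hTI' hcl' (inflate K θ) (hθ θ)
  choose ker hkerN hker using fun θ => exists_normal_forall_mem_iff (ext θ)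
  refine ⟨⨅ θ, ker θ, Subgroup.normal_iInf_normal hkerN, fun l hl => ?_, ?_⟩
  · rw [← QuotientGroup.eq_one_iff]
    refine eq_one_of_forall_eq fun θ => ?_
    have h := (hker θ l).mp (Subgroup.mem_iInf.mp hl θ)
    rw [← inflate_apply, ← hres θ l, h, ← OneMemClass.coe_one L, hres θ 1, inflate_apply, QuotientGroup.mk_one]
  -- the complement of the conjugates of `A`
  let U : Set G := {g | ∀ x : G, x⁻¹ * g * x ∉ A}
  have hUsub : U ⊆ ((⨅ θ, ker θ : Subgroup G) : Set G) := by
    intro g hg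
    rw [SetLike.mem_coe, Subgroup.mem_iInf]
    exact fun θ => (hker θ g).mpr (hout θ g hg)
  let F : (G ⧸ L) × {a : L // a ∉ K} → G := fun z => z.1.out * (z.2.1 : G) * z.1.out⁻¹
  have hUc : Uᶜ ⊆ Set.range F := by
    intro g hg
    simp only [U, Set.mem_compl_iff, Set.mem_setOf_eq, not_forall, not_not] at hg
    obtain ⟨x, a, ha, hax⟩ := hg
    obtain ⟨n, hn⟩ := QuotientGroup.mk_out_eq_mul L x
    refine ⟨(QuotientGroup.mk x, ⟨n⁻¹ * a * n, fun h => ha ?_⟩), ?_⟩
    · have := (inferInstance : K.Normal).conj_mem _ h n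
      simpa [mul_assoc] using this
    · simp only [F, hn, Subgroup.coe_mul, Subgroup.coe_inv, hax]
      group
  have h1 : (Uᶜ).ncard ≤ L.index * (Nat.card L - Nat.card K) := by
    refine (Set.ncard_le_ncard hUc (Set.toFinite _)).trans ?_
    rw [← Nat.card_coe_set_eq]
    refine (Finite.card_range_le F).trans (le_of_eq ?_)
    rw [Nat.card_prod, ← Subgroup.index_eq_card]
    congr 1
    haveI := Fintype.ofFinite L
    rw [Nat.card_eq_fintype_card, Nat.card_eq_fintype_card, Nat.card_eq_fintype_card,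
      Fintype.card_subtype_compl]
  have h2 := Set.ncard_add_ncard_compl U (Set.toFinite _) (Set.toFinite _)
  have h3 : U.ncard ≤ Nat.card (⨅ θ, ker θ : Subgroup G) := by
    rw [← Nat.card_coe_set_eq]
    exact Nat.card_mono (Set.toFinite _) hUsub
  have h4 : Nat.card K ≤ Nat.card L := Subgroup.card_le_card_group K
  have h5 := L.index_mul_card
  have h6 : L.index * (Nat.card L - Nat.card K) + L.index * Nat.card K = L.index * Nat.card L := by
    rw [← mul_add, Nat.sub_add_cancel h4]
  omega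

end CfsgLib.TISetComplement
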